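import Cfsg.Agent.H16.CosetBound

/-!
Upper bound for a centraliser in a certified permutation group from a base certificate: at each
level the image of the base point must have the same fixed-point status under the involution.
-/

set_option autoImplicit false

namespace Cfsg.Agent.H13.He

open Cfsg.Agent.H16 Cfsg.Agent.H16.EnumData

variable {D : EnumData} {G : Type*} [Group G] {s : Nat → G} {hV : D.Valid} {H : Subgroup G}
  (M : D.Model s hV H)

/-- Number of orbit points with the fixed-point status of the base point. -/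
noncomputable def candCount (D : EnumData) (zw : List Nat) (L : BaseLevel) : Nat :=
  ((List.range L.m).filter fun j =>
    Nat.beq (D.run zw (L.pts.get 18 j)) (L.pts.get 18 j) == Nat.beq (D.run zw L.b) L.b).length

/-- The product of the candidate counts. -/
noncomputable def candProd (D : EnumData) (zw : List Nat) : List BaseLevel → Nat
  | [] => 1
  | L :: rest => candCount D zw L * candProd D zw rest

/-- The centraliser of a permutation among the permutations fixing given points. -/
def zfix (σz : Equiv.Perm (Fin D.n)) (fixed : List Nat) : Subgroup (Equiv.Perm (Fin D.n)) :=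
  M.fixer fixed ⊓ Subgroup.centralizer {σz}

theorem exists_to_point {fixed : List Nat} {L : BaseLevel} (h : D.checkLevel fixed L = true) :
    ∃ hb : L.b < D.n, (∀ j, j < L.m → ∃ σ ∈ M.fixer fixed,
      ((σ ⟨L.b, hb⟩ : Fin D.n) : Nat) = L.pts.get 18 j) ∧
      ∀ j, j < L.m → L.pos.get 18 (L.pts.get 18 j) = j := by
  simp only [checkLevel, Bool.and_eq_true, List.all_eq_true, forceNat_eq] at h
  obtain ⟨⟨⟨hb, -⟩, hgens⟩, hpts⟩ := h
  have hlt : ∀ w ∈ L.gens, ∀ g ∈ w, g < D.ng := fun w hw g hg =>
    Nat.le_of_ble_eq_true ((hgens w hw).1 g hg)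
  refine ⟨Nat.le_of_ble_eq_true hb, ?_, ?_⟩
  · intro j
    induction j using Nat.strong_induction_on with
    | _ j IH =>
      intro hj
      have hh := allFrom_spec hpts j (Nat.zero_le j) (by omega)
      simp only [forceNat_eq, Bool.and_eq_true] at hh
      obtain ⟨-, hh⟩ := hh
      cases h0 : Nat.beq j 0 with
      | true =>
        simp only [h0] at hh
        exact ⟨1, one_mem _, (Nat.eq_of_beq_eq_true hh).symm⟩
      | false =>
        simp only [h0, Bool.and_eq_true] at hh
        obtain ⟨⟨hp, hk⟩, hrun⟩ := hh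
        have hk' := Nat.le_of_ble_eq_true hk
        obtain ⟨σ, hσ, hσb⟩ := IH _ (Nat.le_of_ble_eq_true hp)
          (lt_trans (Nat.le_of_ble_eq_true hp) hj)
        set w := L.gens.getD (bitField (L.ent.get 30 j) 18 12) [] with hwdef
        have hw : w ∈ L.gens := by
          rw [hwdef, List.getD_eq_getElem _ _ hk']
          exact List.getElem_mem _
        have hmem : ev hV.perm w ∈ M.fixer fixed := by
          refine ⟨⟨ev s w, M.rho_ev w⟩, fun i hi => Fin.ext ?_⟩
          rw [hV.perm_word w (hlt w hw)]
          exact Nat.eq_of_beq_eq_true ((hgens w hw).2 i hi)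
        refine ⟨ev hV.perm w * σ, mul_mem hmem hσ, ?_⟩
        rw [Equiv.Perm.mul_apply, hV.perm_word _ (hlt _ hw), hσb]
        exact Nat.eq_of_beq_eq_true hrun
  · intro j hj
    have hh := allFrom_spec hpts j (Nat.zero_le j) (by omega)
    simp only [forceNat_eq, Bool.and_eq_true] at hh
    exact Nat.eq_of_beq_eq_true hh.1

theorem level_exact {fixed : List Nat} {L : BaseLevel} {k : Nat}
    (h : D.checkLevel fixed L = true) (hk0 : 0 < k)
    (hk : k ≤ Nat.card (M.fixer (L.b :: fixed)))
    (htot : Nat.card (M.fixer fixed) = L.m * k) :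
    ∃ hb : L.b < D.n, Nat.card (M.fixer (L.b :: fixed)) = k ∧
      ∀ σ ∈ M.fixer fixed, ∃ j, j < L.m ∧ ((σ ⟨L.b, hb⟩ : Fin D.n) : Nat) = L.pts.get 18 j := by
  classical
  obtain ⟨hb, hex, hpos⟩ := exists_to_point M h
  choose σ hσ hσb using hex
  refine ⟨hb, ?_⟩
  set b : Fin D.n := ⟨L.b, hb⟩
  let f : Fin L.m → MulAction.orbit (M.fixer fixed) b := fun j =>
    ⟨σ j j.2 b, ⟨⟨σ j j.2, hσ j j.2⟩, rfl⟩⟩
  have hf : Function.Injective f := by
    intro i j hij
    have hij' : L.pts.get 18 i = L.pts.get 18 j := by
      rw [← hσb i i.2, ← hσb j j.2]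
      exact congrArg (fun z : MulAction.orbit (M.fixer fixed) b => ((z : Fin D.n) : Nat)) hij
    exact Fin.ext (by rw [← hpos i i.2, ← hpos j j.2, hij'])
  have horb : L.m ≤ Nat.card (MulAction.orbit (M.fixer fixed) b) := by
    simpa using Nat.card_le_card_of_injective f hf
  have hstab : Nat.card (M.fixer (L.b :: fixed)) ≤
      Nat.card (MulAction.stabilizer (M.fixer fixed) b) := by
    refine Nat.card_le_card_of_injective (fun x => ⟨⟨x.1, x.2.1, fun i hi =>
      x.2.2 i (List.mem_cons_of_mem _ hi)⟩, ?_⟩) ?_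
    · exact MulAction.mem_stabilizer_iff.mpr (x.2.2 b (List.mem_cons_self ..))
    · intro x y h
      exact Subtype.ext (congrArg (fun u => u.1.1) h)
  have hprod : Nat.card (MulAction.orbit (M.fixer fixed) b) *
      Nat.card (MulAction.stabilizer (M.fixer fixed) b) = L.m * k := by
    rw [← htot, ← Nat.card_prod]
    exact Nat.card_congr (MulAction.orbitProdStabilizerEquivGroup (M.fixer fixed) b)
  have hm : 0 < L.m := by
    by_contra h0
    have : Nat.card (M.fixer fixed) = 0 := by
      rw [htot, show L.m = 0 by omega, Nat.zero_mul]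
    exact absurd this Nat.card_pos.ne'
  have hO : Nat.card (MulAction.orbit (M.fixer fixed) b) ≤ L.m :=
    Nat.le_of_mul_le_mul_right
      ((Nat.mul_le_mul_left _ (hk.trans hstab)).trans hprod.le) hk0
  have hOeq := le_antisymm hO horb
  rw [hOeq] at hprod
  have hS := Nat.eq_of_mul_eq_mul_left hm hprod
  refine ⟨le_antisymm (hstab.trans hS.le) hk, fun τ hτ => ?_⟩
  have hbij : Function.Bijective f :=
    (Nat.bijective_iff_injective_and_card f).mpr ⟨hf, by rw [hOeq, Nat.card_fin]⟩
  obtain ⟨j, hj⟩ := hbij.2 ⟨τ b, ⟨⟨τ, hτ⟩, rfl⟩⟩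
  refine ⟨j, j.2, ?_⟩
  rw [← hσb j j.2]
  exact congrArg (fun z : MulAction.orbit (M.fixer fixed) b => ((z : Fin D.n) : Nat)) hj.symm

/-- The bound. -/
theorem card_zfix_le (zw : List Nat) (hzw : ∀ g ∈ zw, g < D.ng) :
    ∀ (ls : List BaseLevel) (fixed : List Nat), D.checkLevels ls fixed = true →
      Nat.card (M.fixer fixed) = levelsProd ls →
      Nat.card (zfix M (ev hV.perm zw) fixed) ≤ candProd D zw ls
  | [], fixed, _, hcard => by
    rw [levelsProd] at hcard
    refine le_trans ?_ hcard.le
    exact Nat.card_le_card_of_injective (Subgroup.inclusion inf_le_left)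
      (Subgroup.inclusion_injective _)
  | L :: rest, fixed, hck, hcard => by
    classical
    simp only [checkLevels, Bool.and_eq_true] at hck
    rw [levelsProd] at hcard
    have hk0 : 0 < levelsProd rest := by
      by_contra h0
      have : Nat.card (M.fixer fixed) = 0 := by
        rw [hcard, show levelsProd rest = 0 by omega, Nat.mul_zero]
      exact absurd this Nat.card_pos.ne'
    obtain ⟨hb, hnext, hall⟩ :=
      level_exact M hck.1 hk0 (M.levelsProd_le rest _ hck.2) hcard
    have ih := card_zfix_le zw hzw rest (L.b :: fixed) hck.2 hnext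
    set σz := ev hV.perm zw with hσz
    set K := zfix M σz fixed with hK
    set b : Fin D.n := ⟨L.b, hb⟩
    have hstab : Nat.card (MulAction.stabilizer K b) ≤ Nat.card (zfix M σz (L.b :: fixed)) := by
      refine Nat.card_le_card_of_injective (fun x => ⟨x.1.1, ⟨⟨x.1.2.1.1, fun i hi => ?_⟩,
        x.1.2.2⟩⟩) ?_
      · rcases List.mem_cons.mp hi with hi | hi
        · obtain rfl : i = b := Fin.ext hi
          exact MulAction.mem_stabilizer_iff.mp x.2
        · exact x.1.2.1.2 i hi
      · intro x y h
        exact Subtype.ext (Subtype.ext (congrArg (fun u => u.1) h))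
    set S := (List.range L.m).filter fun j =>
      Nat.beq (D.run zw (L.pts.get 18 j)) (L.pts.get 18 j) == Nat.beq (D.run zw L.b) L.b with hS
    have hmem : ∀ y : MulAction.orbit K b, ∃ j : Fin S.length,
        L.pts.get 18 (S.get j) = ((y : Fin D.n) : Nat) := by
      rintro ⟨y, ⟨σ, hσ⟩, rfl⟩
      obtain ⟨hσf, hσc⟩ := Subgroup.mem_inf.mp hσ
      obtain ⟨j, hj, hjy⟩ := hall σ hσf
      have hcomm : σz * σ = σ * σz :=
        Subgroup.mem_centralizer_iff.mp hσc σz (Set.mem_singleton _)
      have hjS : j ∈ S := by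
        rw [hS, List.mem_filter, List.mem_range]
        refine ⟨hj, beq_iff_eq.mpr ?_⟩
        rw [← hjy, Bool.eq_iff_iff, Nat.beq_eq, Nat.beq_eq, ← hV.perm_word zw hzw,
          ← hV.perm_word zw hzw b, ← hσz]
        change ((σz (σ b) : Fin D.n) : Nat) = ((σ b : Fin D.n) : Nat) ↔
          ((σz b : Fin D.n) : Nat) = (b : Nat)
        rw [← Equiv.Perm.mul_apply, hcomm, Equiv.Perm.mul_apply, ← Fin.ext_iff, ← Fin.ext_iff,
          σ.injective.eq_iff]
      obtain ⟨i, hi⟩ := List.get_of_mem hjS
      exact ⟨i, by rw [hi]; exact hjy.symm⟩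
    choose g hg using hmem
    have horb : Nat.card (MulAction.orbit K b) ≤ candCount D zw L := by
      have := Nat.card_le_card_of_injective g fun y y' h =>
        Subtype.ext (Fin.ext (by rw [← hg y, ← hg y', h]))
      simpa [candCount, ← hS] using this
    calc Nat.card K = Nat.card (MulAction.orbit K b) * Nat.card (MulAction.stabilizer K b) := by
          rw [← Nat.card_prod]
          exact (Nat.card_congr (MulAction.orbitProdStabilizerEquivGroup K b)).symm
      _ ≤ candCount D zw L * candProd D zw rest := Nat.mul_le_mul horb (hstab.trans ih)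

end Cfsg.Agent.H13.He
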