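import Mathlib
import Cfsg.Agent.H13.Engine
import Cfsg.Agent.H13.He.Data

/-!
The centraliser of a transvection in `SL₅(2)` as a certified group of permutations of the vectors.
-/

set_option autoImplicit false

namespace Cfsg.Agent.H13.He

open Matrix

/-- The special linear group. -/
abbrev SL5 := Matrix.SpecialLinearGroup (Fin 5) (ZMod 2)

/-- The vector numbered `i`. -/
def vOf (i : Fin 32) : Fin 5 → ZMod 2 := fun k => if (i : ℕ).testBit k then 1 else 0

/-- The number of a vector. -/
def enc (f : Fin 5 → ZMod 2) : Fin 32 :=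
  Fin.ofNat 32 (∑ k : Fin 5, (f k).val * 2 ^ (k : ℕ))

theorem enc_vOf : ∀ i, enc (vOf i) = i := by decide +kernel

theorem vOf_enc : ∀ f, vOf (enc f) = f := by decide +kernel

/-- The action on the numbers of the vectors. -/
def act : SL5 →* Equiv.Perm (Fin 32) where
  toFun A :=
    { toFun := fun i => enc ((A : Matrix (Fin 5) (Fin 5) (ZMod 2)) *ᵥ vOf i)
      invFun := fun i => enc (((A⁻¹ : SL5) : Matrix (Fin 5) (Fin 5) (ZMod 2)) *ᵥ vOf i)
      left_inv := fun i => by
        simp only [vOf_enc, mulVec_mulVec, ← Matrix.SpecialLinearGroup.coe_mul, inv_mul_cancel,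
          Matrix.SpecialLinearGroup.coe_one, one_mulVec, enc_vOf]
      right_inv := fun i => by
        simp only [vOf_enc, mulVec_mulVec, ← Matrix.SpecialLinearGroup.coe_mul, mul_inv_cancel,
          Matrix.SpecialLinearGroup.coe_one, one_mulVec, enc_vOf] }
  map_one' := Equiv.ext fun i => by
    simp only [Equiv.coe_fn_mk, Matrix.SpecialLinearGroup.coe_one, one_mulVec, enc_vOf,
      Equiv.Perm.coe_one, id_eq]
  map_mul' A B := Equiv.ext fun i => by
    simp only [Equiv.coe_fn_mk, Equiv.Perm.coe_mul, Function.comp_apply, vOf_enc, mulVec_mulVec,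
      Matrix.SpecialLinearGroup.coe_mul]

theorem act_apply (A : SL5) (i : Fin 32) :
    act A i = enc ((A : Matrix (Fin 5) (Fin 5) (ZMod 2)) *ᵥ vOf i) := rfl

theorem affine_span : ∀ k : Fin 5, ∃ u v : Fin 32, (u : ℕ).testBit 1 = true ∧
    (v : ℕ).testBit 1 = true ∧
    ((Pi.single k 1 : Fin 5 → ZMod 2) = vOf u ∨ (Pi.single k 1 : Fin 5 → ZMod 2) = vOf u + vOf v) := by
  decide +kernel

/-- An element fixing the affine vectors is trivial. -/
theorem eq_one_of_fix_affine {A : SL5}
    (h : ∀ i : Fin 32, (i : ℕ).testBit 1 = true → act A i = i) : A = 1 := by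
  have h' : ∀ i : Fin 32, (i : ℕ).testBit 1 = true →
      (A : Matrix (Fin 5) (Fin 5) (ZMod 2)) *ᵥ vOf i = vOf i := fun i hi => by
    have := congrArg vOf (h i hi)
    rwa [act_apply, vOf_enc] at this
  apply Subtype.ext
  apply Matrix.ext_of_mulVec_single
  intro k
  obtain ⟨u, v, hu, hv, e | e⟩ := affine_span k
  · rw [e, h' u hu, Matrix.SpecialLinearGroup.coe_one, one_mulVec]
  · rw [e, mulVec_add, h' u hu, h' v hv, Matrix.SpecialLinearGroup.coe_one, one_mulVec]

theorem act_injective : Function.Injective act := by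
  rw [injective_iff_map_eq_one]
  exact fun A hA => eq_one_of_fix_affine fun i _ => by rw [hA]; rfl

theorem block_card : Nat.card {B : Fin 3 → Fin 3 → ZMod 2 //
    ∀ v : Fin 3 → ZMod 2, (∀ i, ∑ j, B i j * v j = 0) → v = 0} = 168 := by
  rw [Nat.card_eq_fintype_card]
  decide +kernel

/-- The transvection. -/
def sMat : Matrix (Fin 5) (Fin 5) (ZMod 2) := Matrix.transvection 0 1 1

theorem centralizer_card_le (s : SL5) (hs : (s : Matrix (Fin 5) (Fin 5) (ZMod 2)) = sMat) :
    Nat.card (Subgroup.centralizer ({s} : Set SL5)) ≤ 21504 := by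
  classical
  have key : ∀ A : Subgroup.centralizer ({s} : Set SL5),
      ∀ i j : Fin 5, (((A : SL5) : Matrix (Fin 5) (Fin 5) (ZMod 2)) * (Matrix.single 0 1 1 : Matrix (Fin 5) (Fin 5) (ZMod 2))) i j =
        ((Matrix.single 0 1 1 : Matrix (Fin 5) (Fin 5) (ZMod 2)) * ((A : SL5) : Matrix (Fin 5) (Fin 5) (ZMod 2))) i j := by
    intro A i j
    have h := congrArg (fun g : SL5 => (g : Matrix (Fin 5) (Fin 5) (ZMod 2)))
      (Subgroup.mem_centralizer_iff.mp A.2 s (Set.mem_singleton _))
    simp only [Matrix.SpecialLinearGroup.coe_mul, hs, sMat, Matrix.transvection, add_mul, mul_add,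
      one_mul, mul_one, add_right_inj] at h
    rw [h]
  have facts : ∀ A : Subgroup.centralizer ({s} : Set SL5),
      let a := ((A : SL5) : Matrix (Fin 5) (Fin 5) (ZMod 2))
      a 0 0 = 1 ∧ a 1 1 = 1 ∧ (∀ i, i ≠ 0 → a i 0 = 0) ∧ ∀ j, j ≠ 1 → a 1 j = 0 := by
    intro A a
    have h01 : a 0 0 = a 1 1 := by
      simpa [a, Matrix.mul_single_apply_same, Matrix.single_mul_apply_same] using key A 0 1
    have hi : ∀ i, i ≠ 0 → a i 0 = 0 := fun i hi => by
      simpa [a, Matrix.mul_single_apply_same, Matrix.single_mul_apply_of_ne, hi] using key A i 1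
    have hj : ∀ j, j ≠ 1 → a 1 j = 0 := fun j hj => by
      simpa [a, Matrix.single_mul_apply_same, Matrix.mul_single_apply_of_ne, hj] using
        (key A 0 j).symm
    have h00 : a 0 0 = 1 := by
      rcases (show ∀ x : ZMod 2, x = 0 ∨ x = 1 by decide) (a 0 0) with h | h
      · exfalso
        have hz : a *ᵥ Pi.single 0 1 = 0 := by
          funext i
          rw [mulVec_single_one]
          rcases eq_or_ne i 0 with rfl | hne
          · exact h
          · exact hi i hne
        have := congrArg (fun v => ((A : SL5)⁻¹ : SL5).1 *ᵥ v) hz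
        rw [mulVec_mulVec, ← Matrix.SpecialLinearGroup.coe_mul, inv_mul_cancel,
          Matrix.SpecialLinearGroup.coe_one, one_mulVec, mulVec_zero] at this
        exact absurd (congrFun this 0) (by simp)
      · exact h
    exact ⟨h00, h01 ▸ h00, hi, hj⟩
  let B : Type := {B : Fin 3 → Fin 3 → ZMod 2 //
    ∀ v : Fin 3 → ZMod 2, (∀ i, ∑ j, B i j * v j = 0) → v = 0}
  have hB : ∀ A : Subgroup.centralizer ({s} : Set SL5), ∀ v : Fin 3 → ZMod 2,
      (∀ i : Fin 3, ∑ j : Fin 3,
        ((A : SL5) : Matrix (Fin 5) (Fin 5) (ZMod 2)) i.succ.succ j.succ.succ * v j = 0) →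
        v = 0 := by
    intro A v hv
    obtain ⟨h00, h11, hi, hj⟩ := facts A
    set a := ((A : SL5) : Matrix (Fin 5) (Fin 5) (ZMod 2))
    set w : Fin 5 → ZMod 2 := Fin.cons 0 (Fin.cons 0 v) with hw
    have hsum : ∀ i, (a *ᵥ w) i = ∑ j : Fin 3, a i j.succ.succ * v j := fun i => by
      rw [mulVec, dotProduct, Fin.sum_univ_succ, Fin.sum_univ_succ]
      simp [hw]
    have himg : a *ᵥ w = a *ᵥ ((a *ᵥ w) 0 • Pi.single 0 1) := by
      rw [mulVec_smul, mulVec_single_one]
      funext i
      rw [Pi.smul_apply, smul_eq_mul]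
      show (a *ᵥ w) i = (a *ᵥ w) 0 * a i 0
      rcases eq_or_ne i 0 with rfl | h0
      · rw [h00, mul_one]
      rw [hi i h0, mul_zero]
      rcases eq_or_ne i 1 with rfl | h1
      · rw [hsum]
        exact Finset.sum_eq_zero fun j _ => by
          rw [hj _ (by intro e; exact absurd (congrArg Fin.val e) (by simp)), zero_mul]
      · obtain ⟨i', rfl⟩ : ∃ i' : Fin 3, i = i'.succ.succ := by
          revert h0 h1
          revert i
          decide
        rw [hsum]
        exact hv i'
    have hinj : Function.Injective (fun u => a *ᵥ u) := fun u u' he => by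
      have := congrArg (fun v => ((A : SL5)⁻¹ : SL5).1 *ᵥ v) he
      simp only [a, mulVec_mulVec, ← Matrix.SpecialLinearGroup.coe_mul, inv_mul_cancel,
        Matrix.SpecialLinearGroup.coe_one, one_mulVec] at this
      exact this
    have hwe := hinj himg
    funext j
    have := congrFun hwe j.succ.succ
    rw [Pi.smul_apply, Pi.single_eq_of_ne (Fin.succ_ne_zero _), smul_zero, hw, Fin.cons_succ,
      Fin.cons_succ] at this
    exact this
  let f : Subgroup.centralizer ({s} : Set SL5) →
      ZMod 2 × (Fin 3 → ZMod 2) × (Fin 3 → ZMod 2) × B := fun A =>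
    let a := ((A : SL5) : Matrix (Fin 5) (Fin 5) (ZMod 2))
    (a 0 1, fun j => a 0 j.succ.succ, fun i => a i.succ.succ 1,
      ⟨fun i j => a i.succ.succ j.succ.succ, hB A⟩)
  have hf : Function.Injective f := by
    intro A A' h
    obtain ⟨p00, p11, pi, pj⟩ := facts A
    obtain ⟨q00, q11, qi, qj⟩ := facts A'
    simp only [f, Prod.mk.injEq, Subtype.mk.injEq, funext_iff] at h
    obtain ⟨e1, e2, e3, e4⟩ := h
    apply Subtype.ext
    apply Matrix.SpecialLinearGroup.ext
    intro i j
    have hcases : ∀ x : Fin 5, x = 0 ∨ x = 1 ∨ ∃ y : Fin 3, x = y.succ.succ := by decide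
    rcases hcases i with rfl | rfl | ⟨i', rfl⟩ <;> rcases hcases j with rfl | rfl | ⟨j', rfl⟩
    · rw [p00, q00]
    · exact e1
    · exact e2 j'
    · rw [pj 0 (by decide), qj 0 (by decide)]
    · rw [p11, q11]
    · rw [pj _ (fun e => absurd (congrArg Fin.val e) (by simp)),
        qj _ (fun e => absurd (congrArg Fin.val e) (by simp))]
    · rw [pi _ (Fin.succ_ne_zero _), qi _ (Fin.succ_ne_zero _)]
    · exact e3 i'
    · exact congrFun (congrFun (congrArg Subtype.val e4) i') j'
  calc Nat.card (Subgroup.centralizer ({s} : Set SL5))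
      ≤ Nat.card (ZMod 2 × (Fin 3 → ZMod 2) × (Fin 3 → ZMod 2) × B) :=
        Nat.card_le_card_of_injective f hf
    _ = 21504 := by
        simp only [Nat.card_prod, Nat.card_fun, B, block_card, Nat.card_zmod]
        simp

/-- The two matrices. -/
def matA (k : Fin 2) : Matrix (Fin 5) (Fin 5) (ZMod 2) :=
  fun i j => if ((cCols.getD (k : ℕ) []).getD (j : ℕ) 0).testBit i then 1 else 0

theorem matA_det : ∀ k, (matA k).det = 1 := by decide +kernel

/-- The two elements of the centraliser. -/
def slA (k : Fin 2) : SL5 := ⟨matA k, matA_det k⟩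

theorem slA_comm : ∀ k, matA k * sMat = sMat * matA k := by decide +kernel

theorem slA_img : ∀ k : Fin 2, ∀ i : Fin 32,
    ((cVec.getD (k : ℕ) ([], [])).1).getD (i : ℕ) 0 = (enc (matA k *ᵥ vOf i) : ℕ) := by
  decide +kernel

theorem cVec_valid : cVec.all (validB 32) = true := by decide +kernel

theorem cVec_check : check 32 cVecLevels cVec = true := by decide +kernel

theorem card_actGroup :
    Nat.card (Subgroup.closure (Set.range fun k => act (slA k))) = 21504 := by
  have hv : ∀ a ∈ cVec, Valid (⊤ : Subgroup (Equiv.Perm (Fin 32))) a :=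
    fun a ha => valid_of_validB (List.all_eq_true.mp cVec_valid a ha)
  have hcard : Nat.card (genGroup 32 cVec) = 21504 :=
    (check_spec cVecLevels cVec hv cVec_check).2.trans (by decide +kernel)
  have hlen : cVec.length = 2 := rfl
  have himg : ∀ k : Fin 2, img (act (slA k)) = (cVec.getD (k : ℕ) ([], [])).1 := by
    intro k
    have hk : (k : ℕ) < cVec.length := k.isLt
    have hmem : cVec.getD (k : ℕ) ([], []) ∈ cVec := by
      rw [List.getD_eq_getElem _ _ hk]; exact List.getElem_mem _
    obtain ⟨τ, -, hτ⟩ := hv _ hmem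
    rw [hτ]
    congr 1
    refine Equiv.ext fun i => Fin.ext ?_
    have := slA_img k i
    rw [hτ] at this
    rw [act_apply, ← (img_getD τ i)]
    exact this.symm
  have heq : genGroup 32 cVec = Subgroup.closure (Set.range fun k => act (slA k)) := by
    rw [genGroup]
    congr 1
    ext σ
    constructor
    · intro hσ
      obtain ⟨n, hn, he⟩ := List.getElem_of_mem (hσ : (img σ, img σ⁻¹) ∈ cVec)
      refine ⟨⟨n, hn⟩, img_injective ?_⟩
      rw [himg, List.getD_eq_getElem _ _ hn, he]
    · rintro ⟨k, rfl⟩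
      have hk : (k : ℕ) < cVec.length := k.isLt
      have hmem : cVec.getD (k : ℕ) ([], []) ∈ cVec := by
        rw [List.getD_eq_getElem _ _ hk]; exact List.getElem_mem _
      obtain ⟨τ, -, hτ⟩ := hv _ hmem
      have e : act (slA k) = τ := img_injective ((himg k).trans (by rw [hτ]))
      show (img (act (slA k)), img (act (slA k))⁻¹) ∈ cVec
      rw [e, ← hτ]
      exact hmem
  rw [← heq, hcard]

end Cfsg.Agent.H13.He
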