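import Cfsg.Agent.H16.HeOrder
import Cfsg.Agent.H13.He.Bound
import Cfsg.Agent.H13.He.Transvection

/-!
The isomorphism between the centraliser of the involution and the centraliser of the transvection:
two pairs of generators span a subgroup of the product which projects injectively to both factors.
-/

set_option autoImplicit false
set_option maxRecDepth 100000

namespace Cfsg.Agent.H13.He

open Cfsg.Spor Cfsg.Agent.H16 Cfsg.Agent.H16.EnumData

/-- The word of a generator. -/
def gW (k : Nat) : List Nat := cWords.getD k []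

/-- A point of the orbit. -/
noncomputable def oPt (p : Nat) : Nat := cOrb.get 12 p

/-- Image in the orbit. -/
noncomputable def imP (k p : Nat) : Nat := cImg.get 9 (Nat.add p (Nat.mul 336 k))

/-- A partner. -/
noncomputable def qv (j p i : Nat) : Nat :=
  bitField (cRel.get 36 (Nat.add p (Nat.mul 336 j))) (Nat.mul 9 i) 9

/-- The affine vector numbered `j`. -/
def affV (j : Nat) : Nat := 4 * (j / 2) + 2 + j % 2

/-- The number of an affine vector. -/
def affI (c : Nat) : Nat := 2 * (c / 4) + c % 2

/-- Image of a vector. -/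
def tV (k c : Nat) : Nat := (cVec.getD k ([], [])).1.getD c 0

theorem gW_lt : ∀ k : Fin 2, ∀ g ∈ gW k, g < HeH.data.ng := by decide +kernel

theorem comm_check : ∀ k : Fin 2, allFrom (fun i =>
    Nat.beq (HeH.data.run (gW k ++ [4]) i) (HeH.data.run (4 :: gW k) i)) HeH.data.n 0 = true := by
  decide +kernel

theorem orbit_check : ∀ k : Fin 2, allFrom (fun p =>
    Nat.ble (Nat.succ (oPt p)) HeH.data.n && Nat.ble (Nat.succ (imP k p)) 336 &&
      Nat.beq (HeH.data.run (gW k) (oPt p)) (oPt (imP k p))) 336 0 = true := by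
  decide +kernel

theorem orbit_nodup : ((List.range 336).map oPt).Nodup := by decide +kernel

theorem rel_check : ∀ k : Fin 2, ∀ j : Fin 16,
    allFrom (fun p => (List.range 4).all fun i =>
      Nat.ble (Nat.succ (qv j p i)) 336 &&
      Nat.ble (Nat.succ (affI (tV k (affV j)))) 16 &&
      Nat.beq (affV (affI (tV k (affV j)))) (tV k (affV j)) &&
      (List.range 4).any fun i' =>
        Nat.beq (imP k (qv j p i)) (qv (affI (tV k (affV j))) (imP k p) i')) 336 0 = true := by
  decide +kernel

theorem distinct_check : ∀ j j' : Fin 16, j ≠ j' →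
    ((List.range 336).any fun p => (List.range 4).any fun i =>
      (List.range 4).all fun i' => !Nat.beq (qv j p i) (qv j' p i')) = true := by
  decide +kernel

theorem affV_lt : ∀ j : Fin 16, affV j < 32 := by decide +kernel

theorem affV_inj : ∀ j j' : Fin 16, affV j = affV j' → j = j' := by decide +kernel

theorem affV_onto : ∀ c : Fin 32, (c : Nat).testBit 1 = true → ∃ j : Fin 16, affV j = c := by
  decide +kernel

theorem cand_eq : candProd HeH.data [4] cBase = 21504 := by decide +kernel

theorem cBase_ok : HeH.data.checkLevels cBase [] = true := by decide +kernel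

theorem cBase_prod : levelsProd cBase = 4030387200 := by decide +kernel

/-- The involution. -/
noncomputable def zInv : He := ev HeH.val [4]

/-- A generator of the centraliser. -/
noncomputable def gHe (k : Fin 2) : He := ev HeH.val (gW k)

theorem oPt_inj {p q : Nat} (hp : p < 336) (hq : q < 336) (h : oPt p = oPt q) : p = q :=
  List.inj_on_of_nodup_map orbit_nodup (List.mem_range.mpr hp) (List.mem_range.mpr hq) h

/-- The group. -/
noncomputable def rhoC : He →* Equiv.Perm (Fin HeH.data.n) := HeH.theModel.rho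

theorem rhoC_ev (w : List Nat) (hw : ∀ g ∈ w, g < HeH.data.ng) (i : Fin HeH.data.n) :
    ((rhoC (ev HeH.val w) i : Fin HeH.data.n) : Nat) = HeH.data.run w i := by
  rw [rhoC, Model.rho_ev]
  exact HeH.valid.perm_word w hw i

theorem gHe_comm (k : Fin 2) : gHe k * zInv = zInv * gHe k := by
  have h4 : ∀ g ∈ [4], g < HeH.data.ng := by decide +kernel
  rw [gHe, zInv, ← ev_append, ← ev_append]
  apply HeOrder.card_and_faithful.2
  refine Equiv.ext fun i => Fin.ext ?_
  have h1 := rhoC_ev ([4] ++ gW k) (fun g hg => (List.mem_append.mp hg).elim (h4 g) (gW_lt k g)) i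
  have h2 := rhoC_ev (gW k ++ [4]) (fun g hg => (List.mem_append.mp hg).elim (gW_lt k g) (h4 g)) i
  refine h1.trans (Eq.trans ?_ h2.symm)
  exact (Nat.eq_of_beq_eq_true (allFrom_spec (comm_check k) i (Nat.zero_le _) (by omega))).symm

/-- The relation. -/
def Rel (c : Fin 32) (a b : Fin HeH.data.n) : Prop :=
  ∃ j : Fin 16, ∃ p, p < 336 ∧ ∃ i, i < 4 ∧
    (c : Nat) = affV j ∧ (a : Nat) = oPt p ∧ (b : Nat) = oPt (qv j p i)

/-- The relation is preserved. -/
def Keeps (x : He × SL5) : Prop :=
  ∀ c a b, Rel c a b → Rel (act x.2 c) (rhoC x.1 a) (rhoC x.1 b)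

theorem keeps_one : Keeps 1 := fun c a b h => by simpa using h

theorem keeps_mul {x y : He × SL5} (hx : Keeps x) (hy : Keeps y) : Keeps (x * y) :=
  fun c a b h => by
    simpa [map_mul, Equiv.Perm.mul_apply] using hx _ _ _ (hy _ _ _ h)

theorem keeps_gen (k : Fin 2) : Keeps (gHe k, slA k) := by
  rintro c a b ⟨j, p, hp, i, hi, hc, ha, hb⟩
  have hO := allFrom_spec (orbit_check k)
  have hR := List.all_eq_true.mp (allFrom_spec (rel_check k j) p (Nat.zero_le _) (by omega)) i
    (List.mem_range.mpr hi)
  simp only [Bool.and_eq_true, List.any_eq_true, List.mem_range] at hR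
  obtain ⟨⟨⟨hq, hlt⟩, haff⟩, i', hi', hrel⟩ := hR
  have hq' := Nat.le_of_ble_eq_true hq
  have hOp := hO p (Nat.zero_le _) (by omega)
  have hOq := hO (qv j p i) (Nat.zero_le _) (by omega)
  simp only [Bool.and_eq_true] at hOp hOq
  refine ⟨⟨_, Nat.le_of_ble_eq_true hlt⟩, imP k p, Nat.le_of_ble_eq_true hOp.1.2, i', hi', ?_,
    ?_, ?_⟩
  · show ((act (slA k) c : Fin 32) : Nat) = _
    rw [Nat.eq_of_beq_eq_true haff, tV, ← hc, slA_img k c, act_apply]
    rfl
  · show ((rhoC (gHe k) a : Fin HeH.data.n) : Nat) = _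
    rw [gHe, rhoC_ev _ (gW_lt k), ha, Nat.eq_of_beq_eq_true hOp.2]
  · show ((rhoC (gHe k) b : Fin HeH.data.n) : Nat) = _
    rw [gHe, rhoC_ev _ (gW_lt k), hb, Nat.eq_of_beq_eq_true hOq.2, Nat.eq_of_beq_eq_true hrel]

/-- The subgroup of the product. -/
noncomputable def pairs : Subgroup (He × SL5) :=
  Subgroup.closure (Set.range fun k => (gHe k, slA k))

theorem finite_he : Finite He :=
  Nat.finite_of_card_ne_zero (by rw [HeOrder.card_and_faithful.1]; norm_num)

theorem keeps_of_mem {x : He × SL5} (hx : x ∈ pairs) : Keeps x := by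
  have := finite_he
  induction hx using Subgroup.closure_induction with
  | mem x hx => obtain ⟨k, rfl⟩ := hx; exact keeps_gen k
  | one => exact keeps_one
  | mul x y _ _ hx hy => exact keeps_mul hx hy
  | inv x _ hx =>
    have hpow : ∀ m : ℕ, Keeps (x ^ m) := fun m => by
      induction m with
      | zero => simpa using keeps_one
      | succ m ih => rw [pow_succ]; exact keeps_mul ih hx
    have h1 : x⁻¹ = x ^ (orderOf x - 1) := by
      refine inv_eq_of_mul_eq_one_right ?_
      rw [← pow_succ', Nat.sub_add_cancel (orderOf_pos x), pow_orderOf_eq_one]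
    rw [h1]
    exact hpow _

theorem snd_eq_one {A : SL5} (h : ((1 : He), A) ∈ pairs) : A = 1 := by
  refine eq_one_of_fix_affine fun c hc => ?_
  obtain ⟨j, hj⟩ := affV_onto c hc
  have hO := allFrom_spec (orbit_check 0)
  have hkeep : ∀ p, p < 336 → ∀ i, i < 4 → ∃ j' : Fin 16, ((act A c : Fin 32) : Nat) = affV j' ∧
      ∃ i', i' < 4 ∧ qv j p i = qv j' p i' := by
    intro p hp i hi
    have hq : qv j p i < 336 := by
      have hR := List.all_eq_true.mp (allFrom_spec (rel_check 0 j) p (Nat.zero_le _) (by omega)) i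
        (List.mem_range.mpr hi)
      simp only [Bool.and_eq_true] at hR
      exact Nat.le_of_ble_eq_true hR.1.1.1
    have hOp := hO p (Nat.zero_le _) (by omega)
    have hOq := hO _ (Nat.zero_le _) (by omega : qv j p i < 0 + 336)
    simp only [Bool.and_eq_true] at hOp hOq
    obtain ⟨j', p', hp', i', hi', hc', ha', hb'⟩ := keeps_of_mem h c
      ⟨oPt p, Nat.le_of_ble_eq_true hOp.1.1⟩ ⟨_, Nat.le_of_ble_eq_true hOq.1.1⟩
      ⟨j, p, hp, i, hi, hj.symm, rfl, rfl⟩
    simp only [map_one, Equiv.Perm.one_apply] at ha' hb'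
    obtain rfl : p = p' := oPt_inj hp hp' ha'
    have hq2 : qv j' p i' < 336 := by
      have hR := List.all_eq_true.mp (allFrom_spec (rel_check 0 j') p (Nat.zero_le _) (by omega)) i'
        (List.mem_range.mpr hi')
      simp only [Bool.and_eq_true] at hR
      exact Nat.le_of_ble_eq_true hR.1.1.1
    exact ⟨j', hc', i', hi', oPt_inj hq hq2 hb'⟩
  obtain ⟨j', hj', -⟩ := hkeep 0 (by norm_num) 0 (by norm_num)
  rcases eq_or_ne j j' with rfl | hne
  · exact Fin.ext (hj'.trans hj)
  · exfalso
    have hd := distinct_check j j' hne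
    simp only [List.any_eq_true, List.all_eq_true, List.mem_range, Bool.not_eq_true'] at hd
    obtain ⟨p, hp, i, hi, hd⟩ := hd
    obtain ⟨j'', hj'', i', hi', he⟩ := hkeep p hp i hi
    obtain rfl : j' = j'' := affV_inj _ _ (hj'.symm.trans hj'')
    have := hd i' hi'
    rw [he, Nat.beq_refl] at this
    exact Bool.noConfusion this

theorem centralizer_z_le : Nat.card (Subgroup.centralizer ({zInv} : Set He)) ≤ 21504 := by
  have := finite_he
  obtain ⟨hcard, hinj⟩ := HeOrder.card_and_faithful
  have hfix : Nat.card (HeH.theModel.fixer []) = levelsProd cBase := by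
    rw [cBase_prod, ← hcard]
    exact (Nat.card_eq_of_bijective (fun x : He => (⟨HeH.theModel.rho x, ⟨x, rfl⟩,
      fun i hi => absurd hi (by simp)⟩ : HeH.theModel.fixer []))
      ⟨fun x y h => hinj (congrArg Subtype.val h),
        fun y => ⟨y.2.1.choose, Subtype.ext y.2.1.choose_spec⟩⟩).symm
  have hb := card_zfix_le HeH.theModel [4] (by decide +kernel) cBase [] cBase_ok hfix
  rw [cand_eq] at hb
  refine le_trans ?_ hb
  refine Nat.card_le_card_of_injective (fun x => ⟨HeH.theModel.rho x.1,
    Subgroup.mem_inf.mpr ⟨⟨⟨x.1, rfl⟩, fun i hi => absurd hi (by simp)⟩, ?_⟩⟩) ?_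
  · rw [Subgroup.mem_centralizer_iff]
    rintro y rfl
    rw [← HeH.theModel.rho_ev, ← map_mul, ← map_mul,
      show ev HeH.val [4] = zInv from rfl,
      Subgroup.mem_centralizer_iff.mp x.2 zInv (Set.mem_singleton _)]
  · intro x y h
    exact Subtype.ext (hinj (congrArg Subtype.val h))

theorem iso_of_transvection (s : SL5) (hs : (s : Matrix (Fin 5) (Fin 5) (ZMod 2)) = sMat) :
    Nonempty (Subgroup.centralizer ({zInv} : Set He) ≃* Subgroup.centralizer ({s} : Set SL5)) := by
  classical
  have := finite_he
  have hle : pairs ≤ (Subgroup.centralizer ({zInv} : Set He)).prod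
      (Subgroup.centralizer ({s} : Set SL5)) := by
    rw [pairs, Subgroup.closure_le]
    rintro _ ⟨k, rfl⟩
    refine ⟨Subgroup.mem_centralizer_iff.mpr ?_, Subgroup.mem_centralizer_iff.mpr ?_⟩
    · rintro y rfl
      exact (gHe_comm k).symm
    · rintro y rfl
      apply Subtype.ext
      rw [Matrix.SpecialLinearGroup.coe_mul, Matrix.SpecialLinearGroup.coe_mul, hs]
      exact (slA_comm k).symm
  let f : pairs →* Subgroup.centralizer ({zInv} : Set He) :=
    ((MonoidHom.fst He SL5).comp pairs.subtype).codRestrict _ fun x => (hle x.2).1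
  let g : pairs →* Subgroup.centralizer ({s} : Set SL5) :=
    ((MonoidHom.snd He SL5).comp pairs.subtype).codRestrict _ fun x => (hle x.2).2
  have hf : Function.Injective f := by
    rw [injective_iff_map_eq_one]
    intro x hx
    have h1 : (x : He × SL5).1 = 1 := congrArg Subtype.val hx
    exact Subtype.ext (Prod.ext h1 (snd_eq_one (by rw [← h1]; exact x.2)))
  have hsnd : 21504 ≤ Nat.card g.range := by
    have hrange : g.range.map (act.comp (Subgroup.centralizer ({s} : Set SL5)).subtype) =
        Subgroup.closure (Set.range fun k => act (slA k)) := by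
      rw [← MonoidHom.range_comp,
        show (act.comp (Subgroup.centralizer ({s} : Set SL5)).subtype).comp g =
          (act.comp (MonoidHom.snd He SL5)).comp pairs.subtype from rfl,
        MonoidHom.range_comp, Subgroup.range_subtype, pairs, MonoidHom.map_closure,
        ← Set.range_comp]
      rfl
    rw [← card_actGroup, ← hrange]
    exact Nat.card_le_card_of_surjective _ (MonoidHom.subgroupMap_surjective _ g.range)
  have hP : 21504 ≤ Nat.card pairs :=
    hsnd.trans (Nat.card_le_card_of_surjective _ g.rangeRestrict_surjective)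
  have hPle := (Nat.card_le_card_of_injective f hf).trans centralizer_z_le
  have hfb : Function.Bijective f :=
    hf.bijective_of_nat_card_le (centralizer_z_le.trans hP)
  have hgs : Function.Surjective g := by
    rw [← MonoidHom.range_eq_top]
    exact Subgroup.eq_top_of_le_card _ ((centralizer_card_le s hs).trans hsnd)
  have hgb : Function.Bijective g :=
    (Nat.bijective_iff_surjective_and_card g).mpr ⟨hgs, le_antisymm
      (hPle.trans (hsnd.trans (Subgroup.card_le_card_group _)))
      (Nat.card_le_card_of_surjective g hgs)⟩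
  exact ⟨(MulEquiv.ofBijective f hfb).symm.trans (MulEquiv.ofBijective g hgb)⟩

theorem orderOf_zInv : orderOf zInv = 2 := by
  have h := HeH.theModel.sq 4
  have hz : zInv = HeH.val 4 := by simp [zInv, ev]
  rw [hz]
  refine orderOf_eq_prime (by rw [sq]; exact h) fun hc => ?_
  obtain ⟨i, hi, hne⟩ : ∃ i : Fin 60, (i : ℕ) < HeH.data.n ∧
      Nat.beq (HeH.data.run [4] i) i = false := by decide +kernel
  have h1 := rhoC_ev [4] (by decide +kernel) ⟨i, hi⟩
  rw [show ev HeH.val [4] = HeH.val 4 by simp [ev], hc, map_one, Equiv.Perm.one_apply] at h1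
  rw [← h1, Nat.beq_refl] at hne
  exact Bool.noConfusion hne

end Cfsg.Agent.H13.He
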